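import Cfsg.Agent.SLBlocks.Full

/-!
# Central centralisers of radical subgroups under isomorphisms and central quotients

`CentralCentralizers p G` passes to isomorphic groups and to quotients by central subgroups of
order prime to `p`.
-/

set_option autoImplicit false

namespace Cfsg.Agent.LieBlocks

open Cfsg.Agent.SLBlocks

variable {p : ℕ} [Fact p.Prime] {G : Type*} [Group G] {K : Type*} [Group K]

/-- Every element of `G` prime-to-`p` modulo a map lifts to an element of order prime to `p`. -/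
theorem exists_lift_coprime [Finite G] {π : G →* K} {x : G} (hx : ¬ p ∣ orderOf (π x)) :
    ∃ g : G, π g = π x ∧ ¬ p ∣ orderOf g := by
  have hp : p.Prime := Fact.out
  obtain ⟨a, m, hm, e⟩ := Nat.exists_eq_pow_mul_and_not_dvd Nat.card_pos.ne' p hp.ne_one
    (n := Nat.card G)
  have hco : (p ^ a).Coprime (orderOf (π x)) := ((hp.coprime_iff_not_dvd).2 hx).pow_left a
  obtain ⟨k, hk1, hk2⟩ := Nat.chineseRemainder hco 0 1
  refine ⟨x ^ k, ?_, fun hdvd => hm (hdvd.trans ?_)⟩
  · rw [map_pow]
    conv_rhs => rw [← pow_one (π x)]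
    exact pow_eq_pow_iff_modEq.2 hk2
  · refine orderOf_dvd_of_pow_eq_one ?_
    obtain ⟨c, hc⟩ := Nat.modEq_zero_iff_dvd.1 hk1
    rw [← pow_mul, hc, show p ^ a * c * m = p ^ a * m * c by ring, ← e, pow_mul, pow_card_eq_one',
      one_pow]

omit [Fact p.Prime] in
theorem CentralCentralizers.congr (h : CentralCentralizers p K) (e : G ≃* K) :
    CentralCentralizers p G := by
  intro D hD hne hrad g hg hord
  have hmapN : ∀ (A : Subgroup G) (x : G), e x ∈ Subgroup.normalizer (A.map e.toMonoidHom : Set K) ↔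
      x ∈ Subgroup.normalizer (A : Set G) := by
    intro A x
    rw [Subgroup.mem_normalizer_iff, Subgroup.mem_normalizer_iff]
    refine ⟨fun H a => ?_, fun H b => ?_⟩
    · have := H (e a)
      simpa [← map_inv, ← map_mul] using this
    · obtain ⟨a, rfl⟩ := e.surjective b
      simpa [← map_inv, ← map_mul] using H a
  have hz := h (D.map e.toMonoidHom) (hD.map _)
    (by rwa [ne_eq, Subgroup.map_eq_bot_iff_of_injective _ e.injective]) (fun Q hQ h1 h2 h3 => ?_) (e g)
    (by
      rw [Subgroup.mem_centralizer_iff]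
      rintro _ ⟨d, hd, rfl⟩
      show e d * e g = e g * e d
      rw [← map_mul, ← map_mul, Subgroup.mem_centralizer_iff.1 hg d hd])
    (by rwa [e.orderOf_eq])
  · rw [Subgroup.mem_center_iff] at hz ⊢
    intro x
    apply e.injective
    rw [map_mul, map_mul]
    exact hz (e x)
  · have hmc : (Q.comap e.toMonoidHom).map e.toMonoidHom = Q :=
      Subgroup.map_comap_eq_self_of_surjective e.surjective Q
    have := hrad (Q.comap e.toMonoidHom) (hQ.comap_of_injective _ e.injective)
      (fun a ha => h1 ⟨a, ha, rfl⟩) (fun a ha => (hmapN D a).1 (h2 ha)) (fun x hx => ?_)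
    · rw [← hmc, this]
    · have hx' := h3 ((hmapN D x).2 hx)
      rwa [← hmc, hmapN] at hx'

/-- The property passes to central quotients by subgroups of order prime to `p`. -/
theorem CentralCentralizers.of_quotient [Finite G] (h : CentralCentralizers p G) (π : G →* K)
    (hπ : Function.Surjective π) (hcen : π.ker ≤ Subgroup.center G) (hcard : ¬ p ∣ Nat.card π.ker) :
    CentralCentralizers p K := by
  classical
  have hp : p.Prime := Fact.out
  intro D' hD' hne' hrad' gb hgb hord
  set H := D'.comap π with hH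
  set f := π.subgroupComap D' with hf
  have hfs : Function.Surjective f := MonoidHom.subgroupComap_surjective_of_surjective π D' hπ
  obtain ⟨P⟩ : Nonempty (Sylow p H) := inferInstance
  have hPtop : (P : Subgroup H).map f = ⊤ :=
    ((P.mapSurjective hfs).is_maximal' (hD'.to_subgroup ⊤) le_top).symm
  set D := (P : Subgroup H).map H.subtype with hD
  have hDp : IsPGroup p D := P.2.map _
  have hDH : D ≤ H := Subgroup.map_subtype_le _
  -- decomposition of `H`
  have hdec : ∀ x ∈ H, ∃ d ∈ D, d⁻¹ * x ∈ π.ker := by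
    intro x hx
    obtain ⟨d, hd, hde⟩ : f ⟨x, hx⟩ ∈ (P : Subgroup H).map f := hPtop ▸ Subgroup.mem_top _
    refine ⟨d, ⟨d, hd, rfl⟩, ?_⟩
    have h1 : π (d : G) = π x := congrArg Subtype.val hde
    rw [MonoidHom.mem_ker, map_mul, map_inv, h1, inv_mul_cancel]
  -- kernel elements of `p`-power order are trivial
  have hker : ∀ k ∈ π.ker, ∀ a : ℕ, k ^ p ^ a = 1 → k = 1 := by
    intro k hk a ha
    have h1 : orderOf k ∣ p ^ a := orderOf_dvd_of_pow_eq_one ha
    have h2 : orderOf k ∣ Nat.card π.ker := by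
      have := orderOf_dvd_natCard (⟨k, hk⟩ : π.ker)
      rwa [← Subgroup.orderOf_coe] at this
    exact orderOf_eq_one_iff.1 (Nat.eq_one_of_dvd_coprimes
      (((hp.coprime_iff_not_dvd).2 hcard).pow_left a) h1 h2)
  -- the elements of `p`-power order
  have hmem : ∀ x ∈ H, (∃ a : ℕ, x ^ p ^ a = 1) → x ∈ D := by
    rintro x hx ⟨a, ha⟩
    obtain ⟨d, hd, hk⟩ := hdec x hx
    obtain ⟨b, hb⟩ := hDp ⟨d, hd⟩
    have hb' : d ^ p ^ b = 1 := congrArg Subtype.val hb
    have hcd : Commute d⁻¹ x := by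
      have hc := Subgroup.mem_center_iff.1 (hcen hk) d
      show d⁻¹ * x = x * d⁻¹
      have e1 : d * (d⁻¹ * x) * d⁻¹ = d⁻¹ * x := by rw [hc, mul_inv_cancel_right]
      rw [← e1]; group
    have := hker _ hk (a + b) (by
      rw [hcd.mul_pow, pow_add, pow_mul x, ha, one_pow, mul_comm (p ^ a), pow_mul (d⁻¹), inv_pow d,
        hb', inv_one, one_pow, one_mul])
    rwa [← inv_mul_eq_one.1 this]
  have hDpow : ∀ d ∈ D, ∃ a : ℕ, d ^ p ^ a = 1 := fun d hd => by
    obtain ⟨a, ha⟩ := hDp ⟨d, hd⟩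
    exact ⟨a, congrArg Subtype.val ha⟩
  have hDimg : D.map π = D' := by
    refine le_antisymm ?_ fun y hy => ?_
    · rintro _ ⟨d, hd, rfl⟩; exact hDH hd
    · obtain ⟨x, rfl⟩ := hπ y
      obtain ⟨d, hd, hk⟩ := hdec x hy
      refine ⟨d, hd, ?_⟩
      rw [MonoidHom.mem_ker, map_mul, map_inv, inv_mul_eq_one] at hk
      exact hk
  have hne : D ≠ ⊥ := fun e => hne' (by rw [← hDimg, e, Subgroup.map_bot])
  -- conjugation
  have hconj : ∀ x : G, π x ∈ Subgroup.normalizer (D' : Set K) →
      ∀ d ∈ D, x * d * x⁻¹ ∈ D := by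
    intro x hx d hd
    refine hmem _ ?_ ?_
    · show π (x * d * x⁻¹) ∈ D'
      rw [map_mul, map_mul, map_inv]
      exact (Subgroup.mem_normalizer_iff.1 hx _).1 (hDH hd)
    · obtain ⟨a, ha⟩ := hDpow d hd
      exact ⟨a, by rw [← MulAut.conj_apply, ← map_pow, ha, map_one]⟩
  have hrad : IsRadical p D := by
    intro Q hQ h1 h2 h3
    have hQ' : Q.map π = D' := by
      refine hrad' _ (hQ.map π) (hDimg ▸ Subgroup.map_mono h1) ?_ ?_
      · rintro _ ⟨q, hq, rfl⟩
        rw [← hDimg]
        refine Subgroup.mem_normalizer_iff.2 fun y => ⟨?_, fun hy => ?_⟩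
        · rintro ⟨d, hd, rfl⟩
          exact ⟨q * d * q⁻¹, (Subgroup.mem_normalizer_iff.1 (h2 hq) d).1 hd, by simp⟩
        · obtain ⟨d, hd, hde⟩ := hy
          refine ⟨q⁻¹ * d * q, ?_, ?_⟩
          · have := (Subgroup.mem_normalizer_iff.1 (h2 (inv_mem hq)) d).1 hd
            rwa [inv_inv] at this
          · rw [map_mul, map_mul, map_inv, hde]; group
      · intro y hy
        obtain ⟨x, rfl⟩ := hπ y
        have hxQ := h3 (le_normalizer_of_forall_conj (H := Subgroup.zpowers x) (fun z hz a ha => by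
          refine hconj z ?_ a ha
          obtain ⟨i, rfl⟩ := Subgroup.mem_zpowers_iff.1 hz
          rw [map_zpow]
          exact Subgroup.zpow_mem _ hy i) (Subgroup.mem_zpowers x))
        rw [Subgroup.mem_normalizer_iff]
        refine fun z => ⟨?_, fun hz => ?_⟩
        · rintro ⟨q, hq, rfl⟩
          exact ⟨x * q * x⁻¹, (Subgroup.mem_normalizer_iff.1 hxQ q).1 hq, by simp⟩
        · obtain ⟨q, hq, hqe⟩ := hz
          refine ⟨x⁻¹ * q * x, ?_, ?_⟩
          · have := (Subgroup.mem_normalizer_iff.1 (inv_mem hxQ) q).1 hq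
            rwa [inv_inv] at this
          · rw [map_mul, map_mul, map_inv, hqe]; group
    refine le_antisymm (fun q hq => hmem q ?_ ?_) h1
    · show π q ∈ D'
      exact hQ' ▸ Subgroup.mem_map_of_mem π hq
    · obtain ⟨a, ha⟩ := hQ ⟨q, hq⟩
      exact ⟨a, congrArg Subtype.val ha⟩
  obtain ⟨x, rfl⟩ := hπ gb
  obtain ⟨g, hgx, hg⟩ := exists_lift_coprime hord
  have hz := h D hDp hne hrad g (Subgroup.mem_centralizer_iff.2 fun d hd => ?_) hg
  · rw [← hgx, Subgroup.mem_center_iff]
    intro y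
    obtain ⟨y, rfl⟩ := hπ y
    rw [← map_mul, ← map_mul, Subgroup.mem_center_iff.1 hz y]
  · have hc : π g * π d = π d * π g := by
      rw [hgx]; exact (Subgroup.mem_centralizer_iff.1 hgb _ (hDH hd)).symm
    have h1 : g * d * g⁻¹ ∈ D := by
      refine hconj g ?_ d hd
      rw [hgx]
      exact Subgroup.centralizer_le_normalizer _ hgb
    have h2 : d⁻¹ * (g * d * g⁻¹) ∈ π.ker := by
      rw [MonoidHom.mem_ker, map_mul, map_mul, map_mul, map_inv, map_inv, hc]; group
    obtain ⟨a, ha⟩ := hDpow _ (mul_mem (inv_mem hd) h1)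
    have h3 := hker _ h2 a ha
    rw [inv_mul_eq_one] at h3
    conv_lhs => rw [h3]
    group

end Cfsg.Agent.LieBlocks
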