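import Cfsg.Agent.LieBlocks.Basic
import Cfsg.Agent.SLBlocks.Main
import Cfsg.Agent.ChevBlocks.Certs
import Cfsg.Agent.Chev.Rules
import Cfsg.Prelude.Def_ChevE6
import Cfsg.Prelude.Def_ChevE7
import Cfsg.Prelude.Def_LieTypeChar

/-!
# Central centralisers of radical subgroups: `PSL` and the exceptional Chevalley groups
-/

set_option autoImplicit false
set_option linter.style.haveILetI false

namespace Cfsg.Agent.LieBlocks

open Cfsg.Lie Cfsg.Agent.SLBlocks Cfsg.Agent.ChevBlocks Cfsg.Agent.ChevGrp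

theorem cert_E6 : Cert chevE6 :=
  cert_of_table _
    [[(0, 0), (50, 61), (42, 57), (43, 58), (44, 59), (45, 60)],
    [(58, 61), (0, 0), (43, 50), (39, 47), (40, 48), (41, 49)],
    [(56, 57), (47, 50), (0, 0), (39, 43), (40, 44), (41, 45)],
    [(57, 58), (46, 47), (42, 43), (0, 0), (37, 40), (38, 41)],
    [(58, 59), (47, 48), (43, 44), (39, 40), (0, 0), (36, 38)],
    [(59, 60), (48, 49), (44, 45), (40, 41), (37, 38), (0, 0)]] (by decide +kernel)

theorem cert_E7 : Cert chevE7 :=
  cert_of_table _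
    [[(0, 0), (83, 99), (73, 94), (74, 95), (75, 96), (76, 97), (77, 98)],
    [(95, 99), (0, 0), (74, 83), (69, 79), (70, 80), (71, 81), (72, 82)],
    [(93, 94), (79, 83), (0, 0), (69, 74), (70, 75), (71, 76), (72, 77)],
    [(94, 95), (78, 79), (73, 74), (0, 0), (66, 70), (67, 71), (68, 72)],
    [(95, 96), (79, 80), (74, 75), (69, 70), (0, 0), (64, 67), (65, 68)],
    [(96, 97), (80, 81), (75, 76), (70, 71), (66, 67), (0, 0), (63, 65)],
    [(97, 98), (81, 82), (76, 77), (71, 72), (67, 68), (64, 65), (0, 0)]] (by decide +kernel)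

variable {p : ℕ} [Fact p.Prime]

theorem psl_cc {F : Type} [Field F] [Fintype F] [CharP F p] {n : ℕ} (hn : 2 ≤ n) :
    CentralCentralizers p (Matrix.ProjectiveSpecialLinearGroup (Fin n) F) := by
  refine CentralCentralizers.of_quotient centralCentralizers_SL (QuotientGroup.mk' _)
    (QuotientGroup.mk'_surjective _) (by rw [QuotientGroup.ker_mk']) ?_
  rw [QuotientGroup.ker_mk']
  exact SLBlocks.not_dvd_card_center hn

theorem pslChar_cc {G : Type*} [Group G] (h : Cfsg.IsPSLChar p G) : CentralCentralizers p G := by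
  obtain ⟨F, _, _, _, n, hn, -, ⟨e⟩⟩ := h
  exact CentralCentralizers.congr (psl_cc hn) e

theorem exceptional_cc {G : Type*} [Group G] (h : Cfsg.IsExceptionalChevChar p G) :
    CentralCentralizers p G := by
  obtain ⟨F, _, _, _, h⟩ := h
  have key : ∀ D : ChevalleyDatum, Rules D F → Cert D → Nonempty (G ≃* ↥(D.group F)) →
      CentralCentralizers p G := by
    rintro D hS hC ⟨e⟩
    obtain ⟨len, hR⟩ := hS.root
    exact CentralCentralizers.congr (ChevBlocks.centralCentralizers hS hR hC p) e
  rcases h with ⟨-, h⟩ | h | h | h | h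
  · exact key _ (Chev.rules_of_mem F (by simp)) cert_G2 h
  · exact key _ (Chev.rules_of_mem F (by simp)) cert_F4 h
  · exact key _ (Chev.rules_of_mem F (by simp)) cert_E6 h
  · exact key _ (Chev.rules_of_mem F (by simp)) cert_E7 h
  · exact key _ (Chev.rules_of_mem F (by simp)) cert_E8 h

end Cfsg.Agent.LieBlocks
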