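import Cfsg.Agent.Opp34.PolarGeom
import Cfsg.Agent.LieBlocks.Basic

/-!
# Centralisers of radical subgroups of groups of isometries of polar spaces

In a group of isometries containing the radical groups of the totally singular subspaces, a
nontrivial radical `p`-subgroup contains the radical group of a totally singular subspace invariant
under its normaliser; an element of order prime to `p` centralising it is then a scalar.
-/

set_option autoImplicit false
set_option linter.unusedSectionVars false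

namespace Cfsg.Agent.LieBlocks

open Cfsg.Agent.ChamberSt Cfsg.Agent.Opp34
open Module

variable {F : Type*} [Field F] [Finite F] {σ : F →+* F} {V : Type*} [AddCommGroup V] [Module F V]
  [FiniteDimensional F V] {n : ℕ} {P : Polar F σ V n}

theorem finrank_perp (S : Submodule F V) : finrank F (P.perp S) + finrank F S = finrank F V := by
  set b := finBasis F S
  let L : V →ₗ[F] (Fin (finrank F S) → F) := LinearMap.pi fun i => P.B (b i : V)
  have hker : LinearMap.ker L = P.perp S := by
    ext v
    rw [LinearMap.mem_ker, funext_iff]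
    refine ⟨fun h s hs => ?_, fun h i => h _ (b i).2⟩
    have e : (⟨s, hs⟩ : S) = ∑ i, b.repr ⟨s, hs⟩ i • b i := (b.sum_repr _).symm
    have e' : s = ∑ i, b.repr ⟨s, hs⟩ i • (b i : V) := by
      have h' := congrArg S.subtype e
      rw [map_sum] at h'
      exact h'
    rw [e']
    simp only [map_sum, LinearMap.sum_apply, LinearMap.map_smulₛₗ, LinearMap.smul_apply, smul_eq_mul]
    exact Finset.sum_eq_zero fun i _ => by rw [show P.B (b i : V) v = 0 from h i, mul_zero]
  have hrange : LinearMap.range L = ⊤ := by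
    by_contra hne
    obtain ⟨f, hf0, hf⟩ := Submodule.exists_le_ker_of_lt_top _ (lt_top_iff_ne_top.2 hne)
    refine hf0 (LinearMap.pi_ext' fun j => LinearMap.ext_ring ?_)
    choose d hd using fun i => (Finite.injective_iff_surjective.1 σ.injective)
      (f (LinearMap.single F (fun _ => F) i 1))
    have h1 : (∑ i, d i • (b i : V)) = 0 := P.nondeg _ fun v => by
      have h2 : f (L v) = 0 := hf (LinearMap.mem_range_self L v)
      rw [LinearMap.pi_apply_eq_sum_univ f] at h2
      simp only [map_sum, LinearMap.sum_apply, LinearMap.map_smulₛₗ, LinearMap.smul_apply, smul_eq_mul, hd]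
      refine Eq.trans (Finset.sum_congr rfl fun i _ => ?_) h2
      show f (LinearMap.single F (fun _ => F) i 1) * L v i = _
      rw [smul_eq_mul, mul_comm]
      congr 2
      funext k
      simp [Pi.single_apply, eq_comm]
    have h3 : (∑ i, d i • b i) = 0 := Subtype.ext (by simpa using h1)
    have h4 := Fintype.linearIndependent_iff.1 b.linearIndependent d h3 j
    show f (LinearMap.single F (fun _ => F) j 1) = _
    rw [← hd j, h4, map_zero]; simp
  have := L.finrank_range_add_finrank_ker
  rw [hker, hrange, finrank_top, finrank_fintype_fun_eq_card, Fintype.card_fin] at this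
  omega

theorem perp_perp (S : Submodule F V) : P.perp (P.perp S) = S := by
  have hle : S ≤ P.perp (P.perp S) := fun s hs t ht => P.symm_zero (ht s hs)
  refine (Submodule.eq_of_le_of_finrank_eq hle ?_).symm
  have h1 := finrank_perp (P := P) S
  have h2 := finrank_perp (P := P) (P.perp S)
  omega

theorem exists_hyp {e : V} (he : e ≠ 0) (hq : P.q e = 0) : ∃ y, Hyp P e y := by
  obtain ⟨z, hz⟩ : ∃ z, P.B e z ≠ 0 := by
    by_contra! h
    exact he (P.nondeg e h)
  set z' := (P.B e z)⁻¹ • z with hz'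
  have hez : P.B e z' = 1 := by rw [hz', map_smul, smul_eq_mul, inv_mul_cancel₀ hz]
  obtain ⟨x, hx⟩ := P.t_surj z'
  refine ⟨z' + (-(x * P.η⁻¹)) • e, hq, ?_, ?_⟩
  · rw [P.q_add, P.q_smul_eq_zero _ hq, add_zero, map_smul, P.symm e z', hez, map_one, mul_one,
      smul_eq_mul, neg_mul, mul_assoc, inv_mul_cancel₀ P.η_ne, mul_one, map_neg, hx, add_neg_cancel]
  · rw [map_add, hez, map_smul, P.qB e hq, smul_zero, add_zero]

/-- Move a vector orthogonal to `e` into the orthogonal of `y`. -/
theorem adjust {e y : V} (h : Hyp P e y) {W : Submodule F V} (hW : P.TS W) (heW : e ∈ W) {z1 : V}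
    (hz1 : z1 ∈ P.perp W) :
    ∃ c : F, P.B e (z1 - c • e) = 0 ∧ P.B y (z1 - c • e) = 0 ∧ z1 - c • e ∈ P.perp W ∧
      ∀ z ∈ P.perp W, P.B (z1 - c • e) z = P.B z1 z := by
  refine ⟨P.η⁻¹ * P.B y z1, ?_, ?_, Submodule.sub_mem _ hz1
    (Submodule.smul_mem _ _ fun w hw => hW.2 w hw e heW), fun z hz => ?_⟩
  · rw [map_sub, map_smul, h.ee, smul_zero, sub_zero]; exact hz1 e heW
  · rw [map_sub, map_smul, h.ye, smul_eq_mul, mul_comm P.η⁻¹, mul_assoc, inv_mul_cancel₀ P.η_ne,
      mul_one, sub_self]
  · rw [map_sub, LinearMap.sub_apply, LinearMap.map_smulₛₗ, LinearMap.smul_apply, hz e heW, smul_zero,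
      sub_zero]

/-- Eichler elements in the radical group. -/
theorem exists_rad {e y : V} (h : Hyp P e y) {W : Submodule F V} (hW : P.TS W) (heW : e ∈ W) {a : V}
    (ha1 : P.B e a = 0) (ha2 : P.B y a = 0) (ha : a ∈ P.perp W) :
    ∃ g ∈ rad P W, (∀ z, P.B e z = 0 → ap P g z = z - (P.η⁻¹ * P.B a z) • e) ∧
      ∀ z, ∃ k : F, ap P g z = z + P.B e z • a + k • e := by
  obtain ⟨v, hv, hev, hvz⟩ := h.exists_v ha1 ha2
  obtain ⟨g, -, hgy, hgz⟩ := h.exists_eich hv hev
  have hgz' : ∀ z, P.B e z = 0 → ap P g z = z - (P.η⁻¹ * P.B a z) • e := fun z hz => by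
    rw [hgz z hz, hvz z hz, add_sub_cancel_left]
  obtain ⟨c, hc⟩ : ∃ c : F, c • e = v - y - a := by
    by_contra hno
    obtain ⟨z, hz1, hz2⟩ := exists_sep (P := P) (s := e) (s' := v - y - a)
      (fun hm => hno (Submodule.mem_span_singleton.1 hm))
    refine hz2 ?_
    rw [map_sub, map_sub, LinearMap.sub_apply, LinearMap.sub_apply, hvz z hz1]
    ring
  refine ⟨g, ⟨fun w hw => ?_, fun z hz => ?_⟩, hgz', fun z => ?_⟩
  · rw [hgz' w (hW.2 e heW w hw), P.symm_zero (ha w hw), mul_zero, zero_smul, sub_zero]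
  · rw [hgz' z (hz e heW), sub_sub_cancel_left]
    exact W.neg_mem (W.smul_mem _ heW)
  · obtain ⟨w, hw1, hw2, e1⟩ := h.decomp z
    set z0 := (P.η⁻¹ * P.B y z) • e + w with hz0
    have hez0 : P.B e z0 = 0 := by simp [hz0, h.ee, hw1]
    refine ⟨P.B e z * c - P.η⁻¹ * P.B a z0, ?_⟩
    have e2 : z = P.B e z • y + z0 := by rw [hz0, ← add_assoc]; exact e1
    have e3 : ap P g y = y + a + c • e := by rw [hgy, hc]; abel
    conv_lhs => rw [e2, map_add, map_smul, e3, hgz' z0 hez0]
    conv_rhs => arg 1; arg 1; rw [e2]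
    module

/-- Transvections in the radical group. -/
theorem exists_transvection {e y : V} (h : Hyp P e y) {W : Submodule F V} (hW : P.TS W)
    (heW : e ∈ W) {x : F}
    (hx0 : x ≠ 0) (hx : P.t x = 0) :
    ∃ g ∈ rad P W, ∃ c : F, c ≠ 0 ∧ ∀ z, ap P g z = z + (P.B e z * c) • e := by
  set c := x * P.η⁻¹ with hc
  have hc0 : c ≠ 0 := mul_ne_zero hx0 (inv_ne_zero P.η_ne)
  have hcη : c * P.η = x := by rw [hc, mul_assoc, inv_mul_cancel₀ P.η_ne, mul_one]
  have hv : P.q (y + c • e) = 0 := by
    rw [P.q_add, h.qy, P.q_smul_eq_zero _ h.qe, map_smul, h.ye, smul_eq_mul, hcη, hx, add_zero,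
      add_zero]
  have hev : P.B e (y + c • e) = 1 := by rw [map_add, map_smul, h.ey, h.ee, smul_zero, add_zero]
  obtain ⟨g, -, hgy, hgz⟩ := h.exists_eich hv hev
  have hfix : ∀ z, P.B e z = 0 → ap P g z = z := fun z hz => by
    rw [hgz z hz, map_add, LinearMap.add_apply, LinearMap.map_smulₛₗ, LinearMap.smul_apply, hz,
      smul_zero, add_zero, sub_self, mul_zero, zero_smul, sub_zero]
  have hall : ∀ z, ap P g z = z + (P.B e z * c) • e := by
    intro z
    obtain ⟨w, hw1, hw2, e1⟩ := h.decomp z
    set z0 := (P.η⁻¹ * P.B y z) • e + w with hz0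
    have hez0 : P.B e z0 = 0 := by simp [hz0, h.ee, hw1]
    have e2 : z = P.B e z • y + z0 := by rw [hz0, ← add_assoc]; exact e1
    conv_lhs => rw [e2, map_add, map_smul, hgy, hfix z0 hez0]
    conv_rhs => arg 1; rw [e2]
    module
  refine ⟨g, ⟨fun w hw => ?_, fun z hz => ?_⟩, c, hc0, hall⟩
  · exact hfix w (hW.2 e heW w hw)
  · rw [hall, add_sub_cancel_left]
    exact W.smul_mem _ heW

/-- An element centralising a radical group and stabilising its subspace is a scalar up to a
nilpotent map. -/
theorem exists_scalar_cube (hV : (∃ x : F, x ≠ 0 ∧ P.t x = 0) ∨ 5 ≤ finrank F V) {W : Submodule F V}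
    (hW : P.TS W) (hne : W ≠ ⊥) {i : P.iso} (hst : ∀ w ∈ W, ap P i w ∈ W)
    (hcomm : ∀ g ∈ rad P W, i * g = g * i) :
    ∃ μ : F, ((ap P i).toLinearMap - μ • (1 : Module.End F V)) ^ 3 = 0 := by
  classical
  have hmove : ∀ g ∈ rad P W, ∀ z, ap P i (ap P g z - z) = ap P g (ap P i z) - ap P i z := by
    intro g hg z
    rw [map_sub, ← ap_mul, hcomm g hg, ap_mul]
  have hperp : ∀ z ∈ P.perp W, ap P i z ∈ P.perp W := by
    intro z hz w hw
    let L : W →ₗ[F] W := (ap P i).toLinearMap.restrict hst
    have hinj : Function.Injective L := fun a b e =>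
      Subtype.ext ((ap P i).injective (congrArg Subtype.val e))
    obtain ⟨w', hw'⟩ := (LinearMap.injective_iff_surjective.1 hinj) ⟨w, hw⟩
    rw [← show ap P i w' = w from congrArg Subtype.val hw', ap_B]
    exact hz _ w'.2
  have hbig : P.perp W ≤ W → ¬ (∃ x : F, x ≠ 0 ∧ P.t x = 0) → 3 ≤ finrank F W := by
    intro h hno
    have h5 := hV.resolve_left hno
    have h1 := finrank_perp (P := P) W
    have h2 := Submodule.finrank_mono h
    omega
  -- vectors of `W` go to multiples
  have step1 : ∀ e ∈ W, ∃ c : F, ap P i e = c • e := by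
    intro e he
    by_cases he0 : e = 0
    · exact ⟨0, by rw [he0, map_zero, smul_zero]⟩
    obtain ⟨y, h⟩ := exists_hyp he0 (hW.1 e he)
    by_cases hA : P.perp W ≤ W
    · by_cases hx : ∃ x : F, x ≠ 0 ∧ P.t x = 0
      · obtain ⟨x, hx0, hx⟩ := hx
        obtain ⟨g, hg, c, hc0, hgz⟩ := exists_transvection h hW he hx0 hx
        have h1 := hmove g hg y
        rw [hgz, hgz, add_sub_cancel_left, add_sub_cancel_left, h.ey, one_mul, map_smul] at h1
        refine ⟨c⁻¹ * (P.B e (ap P i y) * c), ?_⟩
        rw [mul_smul, ← h1, inv_smul_smul₀ hc0]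
      · have h3 := hbig hA hx
        -- two independent vectors of `W` orthogonal to `y`
        obtain ⟨a1, ha1, a2, ha2, hay1, hay2, hind⟩ : ∃ a1 ∈ W, ∃ a2 ∈ W, P.B y a1 = 0 ∧
            P.B y a2 = 0 ∧ ∀ α β γ : F, α • a1 + β • a2 = γ • e → α = 0 ∧ β = 0 := by
          let L : W →ₗ[F] F := (P.B y).comp W.subtype
          have hk : 2 ≤ finrank F (LinearMap.ker L) := by
            have := L.finrank_range_add_finrank_ker
            have := (LinearMap.range L).finrank_le
            rw [finrank_self] at this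
            omega
          obtain ⟨f, hf⟩ := exists_linearIndependent_of_le_finrank hk
          refine ⟨_, (f 0).1.2, _, (f 1).1.2, (f 0).2, (f 1).2, fun α β γ hab => ?_⟩
          have hγ : γ = 0 := by
            have h1 := congrArg (P.B y) hab
            rw [map_add, map_smul, map_smul, map_smul, h.ye, show P.B y (f 0).1.1 = 0 from (f 0).2,
              show P.B y (f 1).1.1 = 0 from (f 1).2, smul_zero, smul_zero, add_zero, smul_eq_mul] at h1
            exact (mul_eq_zero.1 h1.symm).resolve_right P.η_ne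
          rw [hγ, zero_smul] at hab
          have h1 : α • f 0 + β • f 1 = 0 := Subtype.ext (Subtype.ext hab)
          have h2 := Fintype.linearIndependent_iff.1 hf ![α, β] (by simpa [Fin.sum_univ_two] using h1)
          exact ⟨h2 0, h2 1⟩
        have hspan : ∀ a ∈ W, P.B y a = 0 → a ∉ F ∙ e → ∃ α β : F, ap P i e = α • a + β • e := by
          intro a ha hay hae
          obtain ⟨g, hg, hgp, hgz⟩ := exists_rad h hW he (hW.2 e he a ha) hay (fun w hw => hW.2 w hw a ha)
          obtain ⟨z, hz1, hz2⟩ := exists_sep (P := P) hae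
          have hk : P.η⁻¹ * P.B a z ≠ 0 := mul_ne_zero (inv_ne_zero P.η_ne) hz2
          set k := P.η⁻¹ * P.B a z with hkd
          obtain ⟨k', hk'⟩ := hgz (ap P i z)
          have h1 := hmove g hg z
          rw [hgp z hz1, hk', sub_sub_cancel_left, map_neg, map_smul, ← hkd] at h1
          refine ⟨-(k⁻¹ * P.B e (ap P i z)), -(k⁻¹ * k'), ?_⟩
          have h2 : ap P i e = k⁻¹ • (k • ap P i e) := by rw [inv_smul_smul₀ hk]
          rw [h2, ← neg_neg (k • ap P i e), h1]
          module
        have hn1 : a1 ∉ F ∙ e := fun hm => by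
          obtain ⟨γ, hγ⟩ := Submodule.mem_span_singleton.1 hm
          have := (hind 1 0 γ (by rw [hγ, one_smul, zero_smul, add_zero])).1
          exact one_ne_zero this
        have hn2 : a2 ∉ F ∙ e := fun hm => by
          obtain ⟨γ, hγ⟩ := Submodule.mem_span_singleton.1 hm
          have := (hind 0 1 γ (by rw [hγ, one_smul, zero_smul, zero_add])).2
          exact one_ne_zero this
        obtain ⟨α, β, h1⟩ := hspan a1 ha1 hay1 hn1
        obtain ⟨α', β', h2⟩ := hspan a2 ha2 hay2 hn2
        have := (hind α (-α') (β' - β) (by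
          have h12 : α • a1 + β • e = α' • a2 + β' • e := h1.symm.trans h2
          rw [neg_smul, sub_smul, ← sub_eq_zero]
          rw [← sub_eq_zero] at h12
          rw [← h12]; abel)).1
        exact ⟨β, by rw [h1, this, zero_smul, zero_add]⟩
    · obtain ⟨z1, hz1, hz1W⟩ := SetLike.not_le_iff_exists.1 hA
      obtain ⟨c, hc1, hc2, hc3, hc4⟩ := adjust h hW he hz1
      obtain ⟨g, hg, hgp, -⟩ := exists_rad h hW he hc1 hc2 hc3
      obtain ⟨z, hz, hz0⟩ : ∃ z ∈ P.perp W, P.B z1 z ≠ 0 := by
        by_contra! hall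
        exact hz1W (perp_perp (P := P) W ▸ fun z hz => P.symm_zero (hall z hz))
      have h1 := hmove g hg z
      rw [hgp z (hz e he), hgp _ (hperp z hz e he), sub_sub_cancel_left, sub_sub_cancel_left, map_neg,
        neg_inj, map_smul, hc4 z hz] at h1
      refine ⟨(P.η⁻¹ * P.B z1 z)⁻¹ * (P.η⁻¹ * P.B (z1 - c • e) (ap P i z)), ?_⟩
      rw [mul_smul, ← h1, inv_smul_smul₀ (mul_ne_zero (inv_ne_zero P.η_ne) hz0)]
  obtain ⟨e, heW, he0⟩ := Submodule.exists_mem_ne_zero_of_ne_bot hne
  obtain ⟨μ, hμ⟩ := step1 e heW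
  have hscal : ∀ w ∈ W, ap P i w = μ • w := by
    intro w hw
    obtain ⟨c, hc⟩ := step1 w hw
    by_cases hwe : w ∈ F ∙ e
    · obtain ⟨d, rfl⟩ := Submodule.mem_span_singleton.1 hwe
      rw [map_smul, hμ, smul_comm]
    obtain ⟨d, hd⟩ := step1 _ (W.add_mem hw heW)
    rw [map_add, hc, hμ, smul_add] at hd
    have h1 : (c - d) • w = (d - μ) • e := by
      rw [sub_smul, sub_smul, sub_eq_sub_iff_add_eq_add, hd]; abel
    by_cases hcd : c - d = 0
    · rw [hcd, zero_smul, eq_comm, smul_eq_zero, or_iff_left he0, sub_eq_zero] at h1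
      rw [hc, sub_eq_zero.1 hcd, h1]
    · exact absurd (Submodule.mem_span_singleton.2 ⟨(c - d)⁻¹ * (d - μ), by
        rw [mul_smul, ← h1, inv_smul_smul₀ hcd]⟩) hwe
  have step2 : ∀ z ∈ P.perp W, ap P i z - μ • z ∈ W := by
    intro z hz
    have hd : ap P i z - μ • z ∈ P.perp W :=
      Submodule.sub_mem _ (hperp z hz) (Submodule.smul_mem _ _ hz)
    rw [← perp_perp (P := P) W]
    intro a ha
    obtain ⟨y, h⟩ := exists_hyp he0 (hW.1 e heW)
    obtain ⟨c, hc1, hc2, hc3, hc4⟩ := adjust h hW heW ha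
    obtain ⟨g, hg, hgp, -⟩ := exists_rad h hW heW hc1 hc2 hc3
    have h1 := hmove g hg z
    rw [hgp z (hz e heW), hgp _ (hperp z hz e heW), sub_sub_cancel_left, sub_sub_cancel_left, map_neg,
      neg_inj, map_smul, hc4 z hz, hc4 _ (hperp z hz), hμ, smul_smul] at h1
    have h2 := smul_left_injective F he0 h1
    rw [map_sub, map_smul, smul_eq_mul]
    have h3 := mul_left_cancel₀ (inv_ne_zero P.η_ne) (a := P.η⁻¹)
      (b := P.B a z * μ) (c := P.B a (ap P i z)) (by rw [← mul_assoc]; exact h2)
    rw [← h3]; ring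
  have step3 : ∀ z, ap P i z - μ • z ∈ P.perp W := by
    intro z e' he'
    rw [map_sub, map_smul, smul_eq_mul]
    by_cases he'0 : e' = 0
    · simp [he'0]
    obtain ⟨y, h⟩ := exists_hyp he'0 (hW.1 e' he')
    by_cases hA : P.perp W ≤ W
    · by_cases hx : ∃ x : F, x ≠ 0 ∧ P.t x = 0
      · obtain ⟨x, hx0, hx⟩ := hx
        obtain ⟨g, hg, c, hc0, hgz⟩ := exists_transvection h hW he' hx0 hx
        have h1 := hmove g hg z
        rw [hgz, hgz, add_sub_cancel_left, add_sub_cancel_left, map_smul, hscal e' he', smul_smul] at h1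
        have h2 := smul_left_injective F he'0 h1
        have h3 : P.B e' (ap P i z) = μ * P.B e' z :=
          mul_right_cancel₀ hc0 (by rw [← h2]; ring)
        rw [h3, sub_self]
      · have h3 := hbig hA hx
        obtain ⟨a, ha, hay, hae⟩ : ∃ a ∈ W, P.B y a = 0 ∧ a ≠ 0 := by
          let L : W →ₗ[F] F := (P.B y).comp W.subtype
          have hk : LinearMap.ker L ≠ ⊥ := fun hb => by
            have := L.finrank_range_add_finrank_ker
            have := (LinearMap.range L).finrank_le
            rw [finrank_self] at this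
            rw [hb, finrank_bot] at *
            omega
          obtain ⟨a, ha, ha0⟩ := Submodule.exists_mem_ne_zero_of_ne_bot hk
          exact ⟨a, a.2, ha, fun h => ha0 (Subtype.ext h)⟩
        obtain ⟨g, hg, -, hgz⟩ := exists_rad h hW he' (hW.2 e' he' a ha) hay (fun w hw => hW.2 w hw a ha)
        obtain ⟨k, hk⟩ := hgz z
        obtain ⟨k', hk'⟩ := hgz (ap P i z)
        have h1 := hmove g hg z
        rw [hk, hk', add_assoc, add_assoc, add_sub_cancel_left, add_sub_cancel_left, map_add, map_smul,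
          map_smul, hscal a ha, hscal e' he'] at h1
        have h2 : (μ * P.B e' z - P.B e' (ap P i z)) • a = (k' - μ * k) • e' := by
          rw [sub_smul, sub_smul, sub_eq_sub_iff_add_eq_add]
          simp only [smul_smul] at h1
          rw [mul_comm μ, mul_comm μ k, h1]; abel
        have h4 := congrArg (P.B y) h2
        rw [map_smul, map_smul, hay, smul_zero, h.ye, smul_eq_mul, eq_comm, mul_eq_zero,
          or_iff_left P.η_ne] at h4
        rw [h4, zero_smul, smul_eq_zero, or_iff_left hae, sub_eq_zero] at h2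
        rw [h2, sub_self]
    · obtain ⟨z1, hz1, hz1W⟩ := SetLike.not_le_iff_exists.1 hA
      obtain ⟨c, hc1, hc2, hc3, -⟩ := adjust h hW he' hz1
      obtain ⟨g, hg, -, hgz⟩ := exists_rad h hW he' hc1 hc2 hc3
      set a := z1 - c • e' with had
      have haW : a ∉ W := fun hm => hz1W (by
        have := W.add_mem hm (W.smul_mem c he')
        rwa [had, sub_add_cancel] at this)
      clear_value a
      obtain ⟨k, hk⟩ := hgz z
      obtain ⟨k', hk'⟩ := hgz (ap P i z)
      have h1 := hmove g hg z
      rw [hk, hk', add_assoc, add_assoc, add_sub_cancel_left, add_sub_cancel_left, map_add, map_smul,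
        map_smul, hscal e' he'] at h1
      by_contra hne'
      refine haW ?_
      have h2 : (P.B e' (ap P i z) - μ * P.B e' z) • a =
          P.B e' z • (ap P i a - μ • a) + (k * μ - k') • e' := by
        rw [sub_smul, smul_sub, sub_smul, smul_smul, mul_comm μ]
        rw [smul_smul] at h1
        rw [show P.B e' (ap P i z) • a = P.B e' z • ap P i a + (k * μ) • e' - k' • e' by
          rw [h1]; abel]
        abel
      rw [← inv_smul_smul₀ hne' a, h2]
      exact W.smul_mem _ (W.add_mem (W.smul_mem _ (step2 a hc3)) (W.smul_mem _ he'))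
  refine ⟨μ, LinearMap.ext fun v => ?_⟩
  set f := (ap P i).toLinearMap - μ • (1 : Module.End F V) with hf
  have hfv : ∀ u, f u = ap P i u - μ • u := fun u => rfl
  show f (f (f v)) = 0
  rw [hfv, hfv]
  have h2 := step2 _ (step3 v)
  rw [hfv, hscal _ h2, sub_self]

end Cfsg.Agent.LieBlocks
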