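import Cfsg.Agent.LieBlocks.PolarRadical
import Cfsg.Agent.Opp34.PolarFamilies
import Cfsg.Agent.Forms.OmegaCrit

/-!
# The projective classical groups of polar spaces have central `p'`-centralisers of radicals
-/

set_option autoImplicit false
set_option linter.unusedSectionVars false
set_option linter.style.haveILetI false

namespace Cfsg.Agent.LieBlocks

open Cfsg.Agent Cfsg.Agent.ChamberSt Cfsg.Agent.Classical Cfsg.Agent.Opp34 Cfsg.Agent.SLBlocks
open Module

variable {p : ℕ} [Fact p.Prime]

theorem polar_quot {F : Type*} [Field F] [Finite F] {σ : F →+* F} {V : Type*} [AddCommGroup V]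
    [Module F V] [FiniteDimensional F V] {n : ℕ} {P : Polar F σ V n} [CharP F p] {G : Type*}
    [Group G] [Finite G] (hn : 0 < n) (hV : (∃ x : F, x ≠ 0 ∧ P.t x = 0) ∨ 5 ≤ finrank F V)
    (hV3 : 2 < finrank F V) (ρ : G →* P.iso) (hρ : Function.Injective ρ)
    (he : ∀ W, P.TS W → rad P W ≤ ρ.range)
    (hW : ∀ D : Subgroup G, IsPGroup p D → D ≠ ⊥ → singFix ρ D ≠ ⊥) :
    CentralCentralizers p (G ⧸ Subgroup.center G) := by
  refine CentralCentralizers.of_quotient (centralCentralizers_polar ρ hV hρ he hW) (QuotientGroup.mk' _)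
    (QuotientGroup.mk'_surjective _) (by rw [QuotientGroup.ker_mk']) ?_
  rw [QuotientGroup.ker_mk']
  exact not_dvd_card_center ρ hρ he (hyp_frame ⟨0, hn⟩) fun e y h => exists_perp_pair h hV3

theorem symp_cc {F : Type} [Field F] [Fintype F] [CharP F p] {m : ℕ} (hm : 2 ≤ m) :
    CentralCentralizers p (Cfsg.PSp m F) := by
  have hρ := (S2545.toIso_bijective (F := F) m).1
  refine polar_quot (by omega) (Or.inl ⟨1, one_ne_zero, rfl⟩) ?_ (S2545.toIso m) hρ
    (fun W _ i _ => MonoidHom.mem_range.2 ((S2545.toIso_bijective m).2 i))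
    fun D hD hne => singFix_ne_bot _ hρ (fun _ _ => rfl) hD hne
  rw [finrank_pi, Fintype.card_sum, Fintype.card_fin]
  omega

theorem unitary_cc {F : Type} [Field F] [Fintype F] [CharP F p] {n q : ℕ}
    (hF : Fintype.card F = q ^ 2) (hn : 3 ≤ n) : CentralCentralizers p (Cfsg.PSU n F q) := by
  have hsq := U.sqField_of_fintype hF
  obtain ⟨l, μ, hl, hμ, hc⟩ := S2546.exists_consts hsq
  let P := S2546.polar hsq hl hμ hc (n := n)
  let j2 : U.UG n F q →* P.iso :=
    { toFun := fun g => ⟨g.1, fun u v => g.2 v u, fun v => g.2 v v⟩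
      map_one' := rfl
      map_mul' := fun _ _ => rfl }
  let ρ : Cfsg.SU n F q →* P.iso := j2.comp (U.suToUG n F q)
  have hρ : Function.Injective ρ := fun a b h =>
    U.suToUG_injective (Subtype.ext (congrArg (Subtype.val : P.iso → _) h))
  have hrange : ∀ i : P.iso, LinearEquiv.det (i : (Fin n → F) ≃ₗ[F] (Fin n → F)) = 1 → i ∈ ρ.range := by
    intro i hi
    have : (⟨i.1, fun u v => i.2.1 v u⟩ : U.UG n F q) ∈ (U.suToUG n F q).range := by
      rw [U.range_suToUG, U.mem_SUG]; exact hi
    obtain ⟨g, hg⟩ := this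
    exact ⟨g, Subtype.ext (show ((U.suToUG n F q g : U.UG n F q) : (Fin n → F) ≃ₗ[F] (Fin n → F)) = i.1
      from congrArg Subtype.val hg)⟩
  haveI : Nontrivial (Fin n → F) := by
    haveI : Nonempty (Fin n) := ⟨⟨0, by omega⟩⟩
    infer_instance
  obtain ⟨d, hd0, hd⟩ := hsq.exists_skew
  have hdt : P.t d = 0 := by
    show d + d ^ q = 0
    rw [hd, add_neg_cancel]
  refine polar_quot (P := P) (by omega) (Or.inl ⟨d, hd0, hdt⟩) ?_ ρ hρ
    (fun W _ i hi => hrange i ?_) fun D hD hne => singFix_ne_bot _ hρ (fun _ h => h) hD hne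
  · rw [finrank_pi, Fintype.card_fin]; omega
  · set d := LinearEquiv.det (i : (Fin n → F) ≃ₗ[F] (Fin n → F)) with hd
    have h2 : d ^ p ^ 2 = 1 := by
      rw [hd, ← map_pow, ← SubgroupClass.coe_pow, rad_pow_eq_one p hi, OneMemClass.coe_one, map_one]
    refine Units.ext (sub_eq_zero.1 (eq_zero_of_pow_eq_zero (n := p ^ 2) ?_))
    rw [sub_pow_char_pow, Units.val_one, one_pow, ← Units.val_pow_eq_pow_val, h2, Units.val_one, sub_self]

section Orth

variable {F : Type*} [Field F] [Finite F] {V : Type*} [AddCommGroup V] [Module F V]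
  [FiniteDimensional F V] {n : ℕ} {Q : QuadraticForm F V}

open QuadraticMap in
/-- A `p`-group inside the kernel of the Dickson invariant fixes a singular vector of the radical
of its fixed space. -/
theorem orth_singFix_ne_bot [CharP F p] (hB : BNondeg Q) (f : OrthFrame Q n)
    {G : Type*} [Group G] [Finite G] (ρ : G →* (orthPolar hB f).iso) (hρ : Function.Injective ρ)
    (hdick : ∀ g, dickson (toOQ hB f (ρ g)) = 1) {D : Subgroup G} (hD : IsPGroup p D) (hne : D ≠ ⊥) :
    singFix ρ D ≠ ⊥ := by
  by_cases h2 : (2 : F) ≠ 0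
  · exact singFix_ne_bot ρ hρ (q_eq_zero_of_two_ne_zero h2) hD hne
  push Not at h2
  obtain ⟨v, hvC, hvC', hv0⟩ := exists_fix_perp ρ hρ hD hne
  intro hbot
  have hqv : (orthPolar hB f).q v ≠ 0 := fun h => hv0 ((Submodule.mem_bot F).1 (hbot ▸ (⟨hvC, hvC', h⟩ : v ∈ singFix ρ D)))
  have hchar : ringChar F = 2 := by
    have := CharTwo.of_one_ne_zero_of_two_eq_zero (one_ne_zero (α := F)) h2
    exact ringChar.eq F 2
  haveI := Fintype.ofFinite F
  set C := fixPts ρ D with hC
  have hvv : (orthPolar hB f).B v v = 0 := hvC' v hvC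
  have hsymm : ∀ a b, (orthPolar hB f).B a b = (orthPolar hB f).B b a := fun a b => polar_comm Q a b
  -- an element moving a vector of `vᗮ` by a multiple of `v` fixes it
  have hfix : ∀ (g : (orthPolar hB f).iso) z, (orthPolar hB f).B v z = 0 → ∀ c : F, ap (orthPolar hB f) g z = z + c • v → ap (orthPolar hB f) g z = z := by
    intro g z hz c hc
    have h := ap_q g z
    rw [hc, (orthPolar hB f).q_add, map_smul, hsymm z v, hz, smul_zero, map_zero, add_zero, add_eq_left, (orthPolar hB f).q_smul,
      RingHom.id_apply, mul_eq_zero, or_iff_left hqv, mul_self_eq_zero] at h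
    rw [hc, h, zero_smul, add_zero]
  set H := (orthPolar hB f).perp (F ∙ v)
  have hH : ∀ z, z ∈ H ↔ (orthPolar hB f).B v z = 0 := fun z => mem_perp_singleton
  have hHC : H ≤ C := by
    by_contra hno
    set X := (orthPolar hB f).perp C with hX
    have hXH : X ≤ H := fun z hz => (hH z).2 (hz v hvC)
    have hnotle : ¬ X ≤ F ∙ v := fun hle => hno (by
      have e : X = F ∙ v := le_antisymm hle ((Submodule.span_singleton_le_iff_mem _ _).2 hvC')
      show (orthPolar hB f).perp (F ∙ v) ≤ C
      rw [← e, hX, perp_perp])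
    obtain ⟨z, hz, hzv, hzfix⟩ := exists_fixed_mod (p := p) hD (((orthPolar hB f).iso.subtype.comp ρ).comp D.subtype)
      (X := X) (Y := F ∙ v)
      (fun d w hw c hc => by
        show (orthPolar hB f).B c (ap (orthPolar hB f) (ρ d) w) = 0
        have hc' : ap (orthPolar hB f) (ρ d) c = c := hc d d.2
        rw [← hc', ap_B]; exact hw c hc)
      (fun d w hw => by
        obtain ⟨c, rfl⟩ := Submodule.mem_span_singleton.1 hw
        rw [map_smul]
        show c • ap (orthPolar hB f) (ρ d) v ∈ F ∙ v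
        rw [hvC d d.2]
        exact hw) hnotle
    have hzC : z ∈ C := fun d hd => by
      obtain ⟨c, hc⟩ := Submodule.mem_span_singleton.1 (hzfix ⟨d, hd⟩)
      refine hfix (ρ d) z ((hH z).1 (hXH hz)) c ?_
      have hc' : c • v = ap (orthPolar hB f) (ρ d) z - z := hc
      rw [hc']; abel
    -- `z` and `v` span a subspace with a singular vector
    obtain ⟨c, hc⟩ := (FiniteField.isSquare_of_char_two hchar ((orthPolar hB f).q z / (orthPolar hB f).q v))
    have hzz : (orthPolar hB f).q (z + c • v) = 0 := by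
      rw [(orthPolar hB f).q_add, (orthPolar hB f).q_smul, map_smul, hsymm z v, hz v hvC, smul_zero, map_zero, add_zero,
        RingHom.id_apply, ← hc, div_mul_cancel₀ _ hqv]
      linear_combination ((orthPolar hB f).q z) * h2
    have h1 : z + c • v = 0 := (Submodule.mem_bot F).1 (hbot ▸
      (⟨add_mem hzC (Submodule.smul_mem _ c hvC), add_mem hz (Submodule.smul_mem _ c hvC'), hzz⟩ :
        z + c • v ∈ singFix ρ D))
    exact hzv (Submodule.mem_span_singleton.2 ⟨-c, by rw [neg_smul]; exact (eq_neg_of_add_eq_zero_left h1).symm⟩)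
  refine hne ((Subgroup.eq_bot_iff_forall _).2 fun d hd => hρ ?_)
  rw [map_one]
  obtain ⟨w, hw⟩ : ∃ w, (orthPolar hB f).B v w ≠ 0 := by
    by_contra! h
    exact hv0 ((orthPolar hB f).nondeg v h)
  set z0 := ((orthPolar hB f).B v w)⁻¹ • w with hz0
  have hvz0 : (orthPolar hB f).B v z0 = 1 := by rw [hz0, map_smul, smul_eq_mul, inv_mul_cancel₀ hw]
  obtain ⟨c, hc⟩ : ∃ c : F, c • v = ap (orthPolar hB f) (ρ d) z0 - z0 := by
    refine Submodule.mem_span_singleton.1 ?_
    rw [← perp_perp (P := orthPolar hB f) (F ∙ v)]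
    intro h hh
    have hfixh : ap (orthPolar hB f) (ρ d) h = h := hHC hh d hd
    have h1 := ap_B (ρ d) h z0
    rw [hfixh] at h1
    rw [map_sub, h1, sub_self]
  have hdz0 : ap (orthPolar hB f) (ρ d) z0 = z0 + c • v := by rw [hc]; abel
  have hdecomp : ∀ z, ap (orthPolar hB f) (ρ d) z = z + ((orthPolar hB f).B v z * c) • v := by
    intro z
    have hz' : z - (orthPolar hB f).B v z • z0 ∈ H := (hH _).2 (by rw [map_sub, map_smul, hvz0, smul_eq_mul, mul_one, sub_self])
    have h1 := hHC hz' d hd
    rw [map_sub, map_smul, hdz0, sub_eq_iff_eq_add] at h1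
    rw [h1]
    module
  have hq := ap_q (ρ d) z0
  rw [hdz0, (orthPolar hB f).q_add, (orthPolar hB f).q_smul c v, map_smul, hsymm z0 v, hvz0, RingHom.id_apply, smul_eq_mul, mul_one,
    add_assoc, add_eq_left] at hq
  have hq' : c * c * (orthPolar hB f).q v + c = 0 := hq
  by_cases hc0 : c = 0
  · refine Subtype.ext (LinearEquiv.ext fun z => ?_)
    show ap (orthPolar hB f) (ρ d) z = z
    rw [hdecomp, hc0, mul_zero, zero_smul, add_zero]
  exfalso
  have hc1 : c * (orthPolar hB f).q v = -1 := by
    refine mul_left_cancel₀ hc0 ?_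
    linear_combination hq'
  have hrefl : toOQ hB f (ρ d) = reflQ Q v hqv := by
    refine Subtype.ext (LinearEquiv.ext fun z => ?_)
    show ap (orthPolar hB f) (ρ d) z = _
    rw [hdecomp]
    refine Eq.trans ?_ (reflQ_apply Q v hqv z).symm
    rw [sub_eq_add_neg, ← neg_smul]
    congr 2
    have : (Q v)⁻¹ = -c := by
      refine inv_eq_of_mul_eq_one_left ?_
      have hc1' : c * Q v = -1 := hc1
      linear_combination (-1 : F) * hc1'
    rw [this]
    show QuadraticMap.polar Q v z * c = _
    ring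
  have := hdick d
  rw [hrefl, dickson_refl hB hqv] at this
  exact absurd this (by decide)

end Orth

open QuadraticMap in
theorem orth_cc {F : Type} [Field F] [Fintype F] [CharP F p] {ι : Type} [Fintype ι] [DecidableEq ι]
    {n : ℕ} {R : QuadraticForm F (ι → F)} {Q₀ : (ι → F) → F} (hQ₀ : ⇑R = Q₀) (hB : BNondeg R)
    (f : OrthFrame R n) (hn : 0 < n) (hV : 5 ≤ finrank F (ι → F)) (hx : OrthGen.NotExceptional R)
    (hd : finrank F (core f) ≤ 2) (h2d : (2 : F) = 0 → finrank F (core f) ≠ 1) :
    CentralCentralizers p (Cfsg.POmega F Q₀) := by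
  subst hQ₀
  set ρ := (isoOQ hB f).comp
    ((OrthGen.matEquiv R).toMonoidHom.comp (Cfsg.Omega F ⇑R).subtype) with hρdef
  have hρ : Function.Injective ρ := fun g g' h => by
    have h1 : OrthGen.matEquiv R g.1 = OrthGen.matEquiv R g'.1 :=
      congrArg (toOQ hB f) h
    exact Subtype.ext ((OrthGen.matEquiv R).injective h1)
  have hrange : ∀ g : OQ R, g ∈ commutator (OQ R) → isoOQ hB f g ∈ ρ.range := fun g hg =>
    ⟨⟨(OrthGen.matEquiv R).symm g, (Forms.mem_Omega_iff_matEquiv R _).2 (by simpa using hg)⟩,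
      congrArg (isoOQ hB f) ((OrthGen.matEquiv R).apply_symm_apply g)⟩
  have hdick : ∀ g, dickson (toOQ hB f (ρ g)) = 1 := fun g =>
    Forms.dickson_of_mem_commutator hB hx ((Forms.mem_Omega_iff_matEquiv R g.1).1 g.2)
  refine polar_quot (P := orthPolar hB f) hn (Or.inr hV) (by omega) ρ hρ (fun W hW i hi => ?_)
    fun D hD hne => orth_singFix_ne_bot hB f ρ hρ hdick hD hne
  obtain ⟨j, hj⟩ := exists_conj_mem_U (orth_witt hB f) hW
  have h1 := U_mem_commutator hB f hx hd h2d p (hj i hi)
  rw [map_mul, map_mul, map_inv] at h1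
  have h2 := (inferInstance : (commutator (OQ R)).Normal).conj_mem _ h1 (toOQ hB f j)⁻¹
  rw [inv_inv] at h2
  have h3 : toOQ hB f i ∈ commutator (OQ R) := by simpa [mul_assoc] using h2
  exact isoOQ_toOQ hB f i ▸ hrange _ h3

open QuadraticMap in
theorem orth_odd_cc {F : Type} [Field F] [Fintype F] [CharP F p] {m : ℕ} (hm : 3 ≤ m)
    (hodd : Odd (Fintype.card F)) :
    CentralCentralizers p (Cfsg.POmega F (Cfsg.quadFormOdd m F)) := by
  classical
  have h2 : (2 : F) ≠ 0 := Forms.two_ne_zero_of_odd_card hodd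
  have hpol : ∀ u v, polar (oddQF m F) u v = 2 * (u (.inl ()) * v (.inl ())) +
      ∑ i, (u (.inr (.inl i)) * v (.inr (.inr i)) + v (.inr (.inl i)) * u (.inr (.inr i))) := by
    intro u v
    simp only [polar, oddQF_apply, Cfsg.quadFormOdd, Pi.add_apply, add_mul, mul_add,
      Finset.sum_add_distrib]
    ring
  have hs := fun j v => Forms.polar_oddQF_single (F := F) m j v
  have hB : BNondeg (oddQF m F) := by
    intro x hx
    funext i
    rcases i with ⟨⟩ | j | j
    · have h := hx (Pi.single (.inl ()) 1)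
      rw [hpol] at h
      simp at h
      exact h.resolve_left h2
    · have h := hx (Pi.single (.inr (.inr j)) 1)
      rwa [polar_comm, (hs j x).2] at h
    · have h := hx (Pi.single (.inr (.inl j)) 1)
      rwa [polar_comm, (hs j x).1] at h
  let f : OrthFrame (oddQF m F) m :=
    { e := fun i => Pi.single (.inr (.inl i)) 1
      y := fun i => Pi.single (.inr (.inr i)) 1
      q_e := fun i => by simp [oddQF_apply, Cfsg.quadFormOdd]
      q_y := fun i => by simp [oddQF_apply, Cfsg.quadFormOdd]
      B_ee := fun i j => by simp [(hs i _).1]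
      B_yy := fun i j => by simp [(hs i _).2]
      B_ey := fun i j => by simp [(hs i _).1, Pi.single_apply]
      aniso := fun a h1 h2 h0 => by
        have e1 : ∀ i, a (.inr (.inr i)) = 0 := fun i => (hs i a).1.symm.trans (h1 i)
        have e2 : ∀ i, a (.inr (.inl i)) = 0 := fun i => (hs i a).2.symm.trans (h2 i)
        simp [oddQF_apply, Cfsg.quadFormOdd, e1, e2] at h0
        funext i
        rcases i with ⟨⟩ | j | j <;> simp [h0, e1, e2] }
  have hd := finrank_eq hB f
  rw [finrank_pi] at hd
  simp only [Fintype.card_sum, Fintype.card_unique, Fintype.card_fin] at hd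
  refine orth_cc (funext (oddQF_apply m)) hB f (by omega) ?_
    (OrthGen.notExceptional_of_two_ne_zero h2) (by omega) (fun h => absurd h h2)
  rw [finrank_pi]; simp only [Fintype.card_sum, Fintype.card_unique, Fintype.card_fin]; omega

open QuadraticMap in
theorem orth_plus_cc {F : Type} [Field F] [Fintype F] [CharP F p] {m : ℕ} (hm : 4 ≤ m) :
    CentralCentralizers p (Cfsg.POmega F (Cfsg.quadFormPlus m F)) := by
  classical
  have hs := fun j v => Forms.polar_plusQF_single (F := F) m j v
  let f : OrthFrame (plusQF m F) m :=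
    { e := fun i => Pi.single (.inl i) 1
      y := fun i => Pi.single (.inr i) 1
      q_e := fun i => by simp [plusQF_apply, Cfsg.quadFormPlus]
      q_y := fun i => by simp [plusQF_apply, Cfsg.quadFormPlus]
      B_ee := fun i j => by simp [(hs i _).1]
      B_yy := fun i j => by simp [(hs i _).2]
      B_ey := fun i j => by simp [(hs i _).1, Pi.single_apply]
      aniso := fun a h1 h2 _ => by
        funext i
        rcases i with j | j
        · exact (hs j a).2.symm.trans (h2 j)
        · exact (hs j a).1.symm.trans (h1 j) }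
  have hd := finrank_eq Forms.bNondeg_plusQF f
  rw [finrank_pi] at hd
  simp only [Fintype.card_sum, Fintype.card_fin] at hd
  refine orth_cc (funext (plusQF_apply m)) Forms.bNondeg_plusQF f (by omega) ?_
    (Forms.notExceptional_plusQF (Or.inr (by omega))) (by omega) (fun _ => by omega)
  rw [finrank_pi]; simp only [Fintype.card_sum, Fintype.card_fin]; omega

open QuadraticMap in
theorem orth_minus_cc {F : Type} [Field F] [Fintype F] [CharP F p] {m : ℕ} (hm : 4 ≤ m) (a b : F)
    (hab : ∀ z₁ z₂ : F, z₁ ^ 2 + a * z₁ * z₂ + b * z₂ ^ 2 = 0 → z₁ = 0 ∧ z₂ = 0) :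
    CentralCentralizers p (Cfsg.POmega F (Cfsg.quadFormMinus (m - 1) F a b)) := by
  classical
  obtain ⟨k, rfl⟩ : ∃ k, m = k + 1 := ⟨m - 1, by omega⟩
  rw [Nat.add_sub_cancel]
  have hB : BNondeg (minusQF k a b) := by
    refine bNondeg_congr (minusEquiv k) (minusEquiv_spec k a b) (bNondeg_hypExt _ fun z hz => ?_)
    by_cases h2 : (2 : F) = 0
    · have hdet := binDisc_ne_zero (anisotropic_binQF hab)
      have ha : a ≠ 0 := fun h => hdet (by linear_combination a * h - 2 * b * h2)
      have h0 := hz ![1, 0]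
      have h1 := hz ![0, 1]
      simp [polar_binQF, h2, ha] at h0 h1
      ext i; fin_cases i <;> assumption
    · have h := hz z
      rw [QuadraticMap.polar_self, two_smul, ← two_mul] at h
      exact anisotropic_binQF hab z ((mul_eq_zero.1 h).resolve_left h2)
  have hs := fun j v => Forms.polar_minusQF_single (F := F) k a b j v
  let f : OrthFrame (minusQF k a b) k :=
    { e := fun i => Pi.single (.inl (.inl i)) 1
      y := fun i => Pi.single (.inl (.inr i)) 1
      q_e := fun i => by simp [minusQF_apply, Cfsg.quadFormMinus]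
      q_y := fun i => by simp [minusQF_apply, Cfsg.quadFormMinus]
      B_ee := fun i j => by simp [(hs i _).1]
      B_yy := fun i j => by simp [(hs i _).2]
      B_ey := fun i j => by simp [(hs i _).1, Pi.single_apply]
      aniso := fun v h1 h2 h0 => by
        have e1 : ∀ i, v (.inl (.inr i)) = 0 := fun i => (hs i v).1.symm.trans (h1 i)
        have e2 : ∀ i, v (.inl (.inl i)) = 0 := fun i => (hs i v).2.symm.trans (h2 i)
        simp [minusQF_apply, Cfsg.quadFormMinus, e1, e2] at h0
        obtain ⟨g1, g2⟩ := hab _ _ h0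
        funext i
        rcases i with (j | j) | j
        · exact e2 j
        · exact e1 j
        · fin_cases j <;> assumption }
  have hd := finrank_eq hB f
  rw [finrank_pi] at hd
  simp only [Fintype.card_sum, Fintype.card_fin] at hd
  have hV : finrank F (((Fin k ⊕ Fin k) ⊕ Fin 2) → F) = k + k + 2 := by
    rw [finrank_pi]; simp
  exact orth_cc (funext (minusQF_apply k a b)) hB f (by omega) (by omega)
    (Forms.notExceptional_of (Or.inr (by omega))) (by omega) (fun _ => by omega)

/-- The five polar families. -/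
theorem classical_polar_cc {G : Type*} [Group G]
    (h : Cfsg.IsPSpChar p G ∨ Cfsg.IsPSUChar p G ∨ Cfsg.IsPOmegaOddChar p G ∨
      Cfsg.IsPOmegaPlusChar p G ∨ Cfsg.IsPOmegaMinusChar p G) : CentralCentralizers p G := by
  rcases h with ⟨F, _, _, _, m, hm, _, ⟨e⟩⟩ | ⟨F, _, _, _, n, q, hF, hn, _, ⟨e⟩⟩ |
    ⟨F, _, _, _, m, hm, hodd, ⟨e⟩⟩ | ⟨F, _, _, _, m, hm, ⟨e⟩⟩ | ⟨F, _, _, _, m, a, b, hm, hab, ⟨e⟩⟩
  · exact CentralCentralizers.congr (symp_cc hm) e
  · exact CentralCentralizers.congr (unitary_cc hF hn) e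
  · exact CentralCentralizers.congr (orth_odd_cc hm hodd) e
  · exact CentralCentralizers.congr (orth_plus_cc (F := F) hm) e
  · exact CentralCentralizers.congr (orth_minus_cc hm a b hab) e

end Cfsg.Agent.LieBlocks
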