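import Cfsg.Agent.LieBlocks.Polar

/-!
# Radical subgroups of groups of isometries have central `p'`-centralisers
-/

set_option autoImplicit false
set_option linter.unusedSectionVars false
set_option linter.style.haveILetI false

namespace Cfsg.Agent.LieBlocks

open Cfsg.Agent.ChamberSt Cfsg.Agent.Opp34 Cfsg.Agent.SLBlocks
open Module

variable {F : Type*} [Field F] [Finite F] {σ : F →+* F} {V : Type*} [AddCommGroup V] [Module F V]
  [FiniteDimensional F V] {n : ℕ} {P : Polar F σ V n} {p : ℕ} [Fact p.Prime] [CharP F p]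

/-- A `p`-group of automorphisms fixes a vector of an invariant subspace modulo a smaller one. -/
theorem exists_fixed_mod {D : Type*} [Group D] [Finite D] (hD : IsPGroup p D)
    (f : D →* (V ≃ₗ[F] V)) {X Y : Submodule F V} (hX : ∀ d, ∀ v ∈ X, f d v ∈ X)
    (hY : ∀ d, ∀ v ∈ Y, f d v ∈ Y) (h : ¬ X ≤ Y) :
    ∃ z ∈ X, z ∉ Y ∧ ∀ d, f d z - z ∈ Y := by
  classical
  haveI : Finite V := Module.finite_of_finite F
  set Y' := Y.comap X.subtype
  let g : D → (X →ₗ[F] X) := fun d => (f d).toLinearMap.restrict (hX d)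
  have hg : ∀ d, Y' ≤ Y'.comap (g d) := fun d v hv => hY d _ hv
  letI : MulAction D (X ⧸ Y') :=
    { smul := fun d x => Submodule.mapQ Y' Y' (g d) (hg d) x
      one_smul := fun x => by
        induction x using Submodule.Quotient.induction_on with
        | H v => exact congrArg Submodule.Quotient.mk (Subtype.ext (by
            show f 1 (v : V) = v; rw [map_one]; rfl))
      mul_smul := fun a b x => by
        induction x using Submodule.Quotient.induction_on with
        | H v => exact congrArg Submodule.Quotient.mk (Subtype.ext (by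
            show f (a * b) (v : V) = f a (f b v); rw [map_mul]; rfl)) }
  have h0 : (0 : X ⧸ Y') ∈ MulAction.fixedPoints D (X ⧸ Y') := fun d => map_zero _
  obtain ⟨v, hv, hvY⟩ := SetLike.not_le_iff_exists.1 h
  haveI : Finite (X ⧸ Y') := Finite.of_surjective _ (Submodule.Quotient.mk_surjective Y')
  have hdvd : p ∣ Nat.card (X ⧸ Y') := by
    set x : X ⧸ Y' := Submodule.Quotient.mk ⟨v, hv⟩
    have hx : x ≠ 0 := fun e => hvY ((Submodule.Quotient.mk_eq_zero Y' (x := ⟨v, hv⟩)).1 e)
    have h1 : addOrderOf x = p := addOrderOf_eq_prime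
      (by rw [← Nat.cast_smul_eq_nsmul F, CharP.cast_eq_zero, zero_smul]) hx
    exact h1 ▸ addOrderOf_dvd_natCard x
  obtain ⟨b, hb, hb0⟩ := hD.exists_fixed_point_of_prime_dvd_card_of_fixed_point _ hdvd h0
  obtain ⟨z, rfl⟩ := Submodule.Quotient.mk_surjective _ b
  refine ⟨z, z.2, fun hz => hb0 ((Submodule.Quotient.mk_eq_zero Y' (x := z)).2 hz).symm, fun d => ?_⟩
  exact (Submodule.Quotient.eq Y' (x := g d z) (y := z)).1 (hb d)

variable {G : Type*} [Group G] (ρ : G →* P.iso)

/-- The vectors fixed by a subgroup. -/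
def fixPts (D : Subgroup G) : Submodule F V where
  carrier := {v | ∀ d ∈ D, ap P (ρ d) v = v}
  add_mem' {a b} ha hb d hd := by rw [map_add, ha d hd, hb d hd]
  zero_mem' d _ := map_zero _
  smul_mem' c a ha d hd := by rw [map_smul, ha d hd]

theorem mem_fixPts {D : Subgroup G} {v : V} : v ∈ fixPts ρ D ↔ ∀ d ∈ D, ap P (ρ d) v = v := Iff.rfl

/-- The singular vectors of the radical of the fixed space. -/
def singFix (D : Subgroup G) : Submodule F V where
  carrier := {v | v ∈ fixPts ρ D ∧ v ∈ P.perp (fixPts ρ D) ∧ P.q v = 0}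
  add_mem' {a _} ha hb := ⟨add_mem ha.1 hb.1, add_mem ha.2.1 hb.2.1,
    P.q_add_eq_zero ha.2.2 hb.2.2 (hb.2.1 a ha.1)⟩
  zero_mem' := ⟨zero_mem _, zero_mem _, P.q_zero⟩
  smul_mem' c _ ha := ⟨Submodule.smul_mem _ c ha.1, Submodule.smul_mem _ c ha.2.1,
    P.q_smul_eq_zero c ha.2.2⟩

theorem singFix_TS (D : Subgroup G) : P.TS (singFix ρ D) :=
  ⟨fun _ hv => hv.2.2, fun u hu _ hv => hv.2.1 u hu.1⟩

theorem singFix_stable {D : Subgroup G} {x : G} (hx : x ∈ Subgroup.normalizer (D : Set G)) {v : V}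
    (hv : v ∈ singFix ρ D) : ap P (ρ x) v ∈ singFix ρ D := by
  have hfix : ∀ x ∈ Subgroup.normalizer (D : Set G), ∀ c ∈ fixPts ρ D, ap P (ρ x) c ∈ fixPts ρ D := by
    intro x hx c hc d hd
    have h1 : x⁻¹ * d * x ∈ D := by
      have := (Subgroup.mem_normalizer_iff.1 (inv_mem hx) d).1 hd
      rwa [inv_inv] at this
    rw [← ap_mul, ← map_mul, show d * x = x * (x⁻¹ * d * x) by group, map_mul, ap_mul, hc _ h1]
  refine ⟨hfix x hx v hv.1, fun c hc => ?_, by rw [ap_q]; exact hv.2.2⟩
  rw [← ap_ap_inv (ρ x) c, ap_B, ← map_inv]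
  exact hv.2.1 _ (hfix _ (inv_mem hx) c hc)

/-- A nontrivial `p`-subgroup has a fixed vector orthogonal to all its fixed vectors. -/
theorem exists_fix_perp [Finite G] {D : Subgroup G} (hρ : Function.Injective ρ) (hD : IsPGroup p D)
    (hne : D ≠ ⊥) : ∃ v ∈ fixPts ρ D, v ∈ P.perp (fixPts ρ D) ∧ v ≠ 0 := by
  by_contra hno
  set C := fixPts ρ D
  have hbot : P.perp C ≤ ⊥ := by
    by_contra hX
    obtain ⟨z, hz, hz0, hfix⟩ := exists_fixed_mod hD
      ((P.iso.subtype.comp ρ).comp D.subtype) (X := P.perp C) (Y := ⊥)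
      (fun d v hv c hc => by
        show P.B c (ap P (ρ d) v) = 0
        have hc' : ap P (ρ d) c = c := hc d d.2
        rw [← hc', ap_B]; exact hv c hc)
      (fun d v hv => by rw [(Submodule.mem_bot F).1 hv, map_zero]; exact zero_mem _) hX
    exact hno ⟨z, fun d hd => sub_eq_zero.1 ((Submodule.mem_bot F).1 (hfix ⟨d, hd⟩)), hz,
      fun e => hz0 ((Submodule.mem_bot F).2 e)⟩
  have h1 := finrank_perp (P := P) C
  rw [le_bot_iff.1 hbot, finrank_bot, zero_add] at h1
  have hC : C = ⊤ := Submodule.eq_top_of_finrank_eq h1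
  refine hne ((Subgroup.eq_bot_iff_forall _).2 fun d hd => hρ ?_)
  rw [map_one]
  refine Subtype.ext (LinearEquiv.ext fun v => ?_)
  have : v ∈ C := hC ▸ Submodule.mem_top
  exact this d hd

theorem singFix_ne_bot [Finite G] (hρ : Function.Injective ρ) (hq : ∀ v, P.B v v = 0 → P.q v = 0)
    {D : Subgroup G} (hD : IsPGroup p D) (hne : D ≠ ⊥) : singFix ρ D ≠ ⊥ := by
  obtain ⟨v, hv, hv', hv0⟩ := exists_fix_perp ρ hρ hD hne
  refine fun e => hv0 ((Submodule.mem_bot F).1 (e ▸ (⟨hv, hv', hq v (hv' v hv)⟩ : v ∈ singFix ρ D)))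

theorem q_eq_zero_of_two_ne_zero (h2 : (2 : F) ≠ 0) (v : V) (hv : P.B v v = 0) : P.q v = 0 := by
  have h := P.q_add v v
  rw [← two_smul F v, P.q_smul, map_ofNat, hv, map_zero, add_zero] at h
  have : (2 : F) * P.q v = 0 := by linear_combination h
  exact (mul_eq_zero.1 this).resolve_left h2

theorem ap_pow (g : P.iso) (k : ℕ) (v : V) :
    ap P (g ^ k) v = (((ap P g).toLinearMap : Module.End F V) ^ k) v := by
  induction k generalizing v with
  | zero => rfl
  | succ k ih => rw [pow_succ', pow_succ', Module.End.mul_apply, ap_mul, ih]; rfl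

/-- The main theorem. -/
theorem centralCentralizers_polar [Finite G]
    (hV : (∃ x : F, x ≠ 0 ∧ P.t x = 0) ∨ 5 ≤ finrank F V) (hρ : Function.Injective ρ)
    (he : ∀ W, P.TS W → rad P W ≤ ρ.range)
    (hW : ∀ D : Subgroup G, IsPGroup p D → D ≠ ⊥ → singFix ρ D ≠ ⊥) :
    CentralCentralizers p G := by
  intro D hD hne hrad g hg hord
  set W := singFix ρ D with hWd
  have hWne : W ≠ ⊥ := hW D hD hne
  obtain ⟨e0, -, he0⟩ := Submodule.exists_mem_ne_zero_of_ne_bot hWne
  haveI : Nontrivial V := ⟨⟨e0, 0, he0⟩⟩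
  haveI : CharP (Module.End F V) p :=
    charP_of_injective_algebraMap (FaithfulSMul.algebraMap_injective F (Module.End F V)) p
  have hstab : ∀ x ∈ Subgroup.normalizer (D : Set G), ∀ z, ap P (ρ x) z ∈ W ↔ z ∈ W := by
    refine fun x hx z => ⟨fun h => ?_, singFix_stable ρ hx⟩
    have := singFix_stable ρ (inv_mem hx) h
    rwa [map_inv, ap_inv_ap] at this
  set R := (rad P W).comap ρ with hR
  have hRp : IsPGroup p R := fun u => ⟨2, Subtype.ext (hρ (by
    push_cast
    rw [map_pow, map_one, rad_pow_eq_one p u.2]))⟩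
  have hRD : R ≤ D := by
    refine radical_absorbs hD hRp (le_normalizer_of_forall_conj fun x hx u hu => ?_) hrad
    rw [hR, Subgroup.mem_comap, map_mul, map_mul, map_inv]
    exact rad_conj (hstab x hx) hu
  have hgN : g ∈ Subgroup.normalizer (D : Set G) := Subgroup.centralizer_le_normalizer _ hg
  obtain ⟨μ, hμ⟩ := exists_scalar_cube hV (singFix_TS ρ D) hWne
    (i := ρ g) (fun w hw => (hstab g hgN w).2 hw) fun i hi => by
      obtain ⟨u, rfl⟩ := he W (singFix_TS ρ D) hi
      rw [← map_mul, ← map_mul, Subgroup.mem_centralizer_iff.1 hg u (hRD hi)]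
  set f : Module.End F V := (ap P (ρ g)).toLinearMap
  have hp : p.Prime := Fact.out
  have h3 : 3 ≤ p ^ 2 := by have := hp.two_le; nlinarith
  have h4 := pow_eq_zero_of_le h3 hμ
  rw [sub_pow_char_pow_of_commute _ _ ((Commute.one_right f).smul_right μ), sub_eq_zero, smul_pow,
    one_pow] at h4
  obtain ⟨k, hk⟩ : ∃ k : ℕ, p ^ 2 * k ≡ 1 [MOD orderOf g] := by
    obtain ⟨k, hk1, hk2⟩ := Nat.chineseRemainder (((hp.coprime_iff_not_dvd).2 hord).pow_left 2) 0 1
    obtain ⟨c, hc⟩ := Nat.modEq_zero_iff_dvd.1 hk1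
    exact ⟨c, by rw [← hc]; exact hk2⟩
  have hscal : ∀ v, ap P (ρ g) v = (μ ^ p ^ 2) ^ k • v := by
    intro v
    have h5 : ρ g ^ (p ^ 2 * k) = ρ g := by
      rw [← map_pow, pow_eq_pow_iff_modEq.2 hk, pow_one]
    conv_lhs => rw [← h5]
    rw [ap_pow, pow_mul, h4, smul_pow, one_pow]
    rfl
  rw [Subgroup.mem_center_iff]
  refine fun x => hρ (Subtype.ext (LinearEquiv.ext fun v => ?_))
  show ap P (ρ (x * g)) v = ap P (ρ (g * x)) v
  rw [map_mul, map_mul, ap_mul, ap_mul, hscal, hscal, map_smul]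

/-- The centre has order prime to `p`. -/
theorem not_dvd_card_center [Finite G] (hρ : Function.Injective ρ)
    (he : ∀ W, P.TS W → rad P W ≤ ρ.range) {e y : V} (hh : Hyp P e y)
    (hpair : ∀ e y : V, Hyp P e y → ∃ a, a ≠ 0 ∧ P.B e a = 0 ∧ P.B y a = 0) :
    ¬ p ∣ Nat.card (Subgroup.center G) := by
  intro hdvd
  have hp : p.Prime := Fact.out
  obtain ⟨c, hc⟩ := exists_prime_orderOf_dvd_card' p hdvd
  have hcp : (c : G) ^ p = 1 := by
    rw [← SubgroupClass.coe_pow, ← hc, pow_orderOf_eq_one]; rfl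
  have hcc := Subgroup.mem_center_iff.1 c.2
  set i := ρ (c : G) with hi
  -- every singular vector is fixed
  have hsing : ∀ v, P.q v = 0 → ap P i v = v := by
    intro v hv
    by_cases hv0 : v = 0
    · rw [hv0, map_zero]
    obtain ⟨w, h⟩ := exists_hyp hv0 hv
    have hmem : ap P i v ∈ F ∙ v := h.fixed_unique (hpair v w h) (by rw [ap_q]; exact hv) fun u hu => by
      obtain ⟨x, rfl⟩ := he _ (TS_singleton hv) hu
      rw [← ap_mul, hi, ← map_mul, hcc x, map_mul, ap_mul, eich_fix hu]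
      exact Submodule.mem_span_singleton_self _
    obtain ⟨l, hl⟩ := Submodule.mem_span_singleton.1 hmem
    have hk : ∀ k : ℕ, ap P (i ^ k) v = l ^ k • v := by
      intro k
      induction k with
      | zero => rw [pow_zero, pow_zero, one_smul, ap_one]
      | succ k ih => rw [pow_succ', ap_mul, ih, map_smul, ← hl, smul_smul, ← pow_succ]
    have h1 := hk p
    rw [hi, ← map_pow, hcp, map_one, ap_one] at h1
    have h2 : l ^ p = 1 := smul_left_injective F hv0 (by
      show l ^ p • v = (1 : F) • v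
      rw [← h1, one_smul])
    have h3 : (l - 1) ^ p = 0 := by rw [sub_pow_char, h2, one_pow, sub_self]
    rw [← hl, sub_eq_zero.1 (eq_zero_of_pow_eq_zero h3), one_smul]
  have hone : i = 1 := by
    refine Subtype.ext (LinearEquiv.ext fun z => sub_eq_zero.1 (P.nondeg _ fun z' => ?_))
    set x := ap P i z - z
    have hperp : ∀ v, P.q v = 0 → P.B v x = 0 := fun v hv => by
      show P.B v (ap P i z - z) = 0
      have h1 := ap_B i v z
      rw [hsing v hv] at h1
      rw [map_sub, h1, sub_self]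
    have hex := hperp e hh.qe
    have hyx := hperp y hh.qy
    refine P.symm_zero ?_
    obtain ⟨a, ha1, ha2, e1⟩ := hh.decomp z'
    obtain ⟨v, hv, -, hvz⟩ := hh.exists_v ha1 ha2
    have hax : P.B a x = 0 := by
      have := hvz x hex
      rwa [hperp v hv, hyx, zero_add, eq_comm] at this
    show P.B z' x = 0
    clear_value x
    rw [e1]
    simp [map_add, LinearMap.map_smulₛₗ, hex, hyx, hax]
  have : (c : G) = 1 := hρ (by rw [map_one]; exact hone)
  rw [← Subgroup.orderOf_coe, this, orderOf_one] at hc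
  exact hp.ne_one hc.symm

end Cfsg.Agent.LieBlocks
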